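import Cfsg.Agent.H518.Ore.CoOneN
import Cfsg.Agent.S0372

/-!
# The monomial subgroup `2^12:M24` of `Co0`: every element is a commutator (helper11, rows of S2491 / S2492)

* `oreM` : every `l ≠ 1` of `M24` is `[a, b]` with `a` of order 23 and no letter fixed by `a` and `b`;
* `code_eq` : every code word is `(u + b u) + (v + a v)` for such `a`, `b`;
* `isC_sign` : every sign change of `Co0` is a commutator of `Co0`; `isC_N` : every element of `2^12:M24`;
* `isC_of_F`, `isC_two`, `isC_isD` : the lifts of the elements of `2^11:M24`, of the 2-elements and of the elements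
  commuting with a dodecad involution.
-/

set_option autoImplicit false

namespace Cfsg.Agent.H11.QO.Monom

open Cfsg Cfsg.Agent.SporadicA.GolayBase Cfsg.Agent.SporadicA.GolayPerm
open Cfsg.Agent.SporadicStructure.M24El Cfsg.Agent.H517.Ore.MBase Cfsg.Agent.H517.Ore.MCheck
open Cfsg.Agent.H517.Ore.MPat Cfsg.Agent.H517.Ore.MAll
open Cfsg.Agent.SporadicA.Co0Mono Cfsg.Agent.SporadicA.Co1Simple
open Cfsg.Agent.H777.Ore (IsC)
open scoped Pointwise

/-! ### Pairs of `M24` -/

/-- `[a, b]` with `a` of order 23 and no common fixed letter -/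
def OreM (l : M24) : Prop :=
  ∃ a b : M24, l = a * b * a⁻¹ * b⁻¹ ∧ orderOf a = 23 ∧ ∀ p : GolayPt, a • p = p → b • p ≠ p

theorem OreM.conj {l : M24} (h : OreM l) (x : M24) : OreM (x * l * x⁻¹) := by
  obtain ⟨a, b, hl, ho, hp⟩ := h
  refine ⟨x * a * x⁻¹, x * b * x⁻¹, by rw [hl]; group, ?_, ?_⟩
  · rw [← ho]
    exact MulEquiv.orderOf_eq (MulAut.conj x) a
  · intro p h1 h2
    rw [mul_smul, mul_smul] at h1 h2
    exact hp (x⁻¹ • p) (eq_inv_smul_iff.2 h1) (eq_inv_smul_iff.2 h2)

theorem OreM.of_conj {l x : M24} (h : OreM (x * l * x⁻¹)) : OreM l := by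
  have h1 := h.conj x⁻¹
  have h2 : x⁻¹ * (x * l * x⁻¹) * x⁻¹⁻¹ = l := by group
  rwa [h2] at h1

/-- no common fixed letter -/
def mvb (t : ℕ × ℕ × ℕ) : Bool :=
  (List.range 24).all fun i => !(Nat.beq (papp t.2.1 i) i && Nat.beq (papp t.2.2 i) i)

theorem wit_specM {t : ℕ × ℕ × ℕ} (h : wit [] 23 t = true) (hm : mvb t = true) : OreM (el t.1) := by
  obtain ⟨r, a, b⟩ := t
  have h' := h
  simp only [wit, Bool.and_eq_true, Bool.not_eq_true'] at h
  obtain ⟨⟨⟨⟨⟨⟨⟨hr, ha⟩, hb⟩, hfa⟩, hfb⟩, hab⟩, hne⟩, hpw⟩ := h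
  have h1 := congrArg el (Nat.eq_of_beq_eq_true hab)
  rw [el_pcomp ha hb, el_pcomp hr (ok_pcomp hb ha), el_pcomp hb ha] at h1
  refine ⟨el a, el b, ?_, ?_, ?_⟩
  · show el r = _
    rw [h1]; group
  · have : Fact (Nat.Prime 23) := ⟨by norm_num⟩
    apply orderOf_eq_prime
    · rw [← el_pw ha, Nat.eq_of_beq_eq_true hpw, el_idP]
    · intro h2
      have h3 : fixL a (List.range 24) = true := by
        rw [fixL_iff ha (fun i hi => List.mem_range.1 hi)]
        intro i _
        rw [h2, one_smul]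
      rw [h3] at hne
      exact absurd hne (by decide)
  · intro p h2 h3
    have h4 := List.all_eq_true.1 hm (idx p) (List.mem_range.2 (idx_lt p))
    have h5 : papp a (idx p) = idx p := by rw [← idx_el_smul ha, h2]
    have h6 : papp b (idx p) = idx p := by rw [← idx_el_smul hb, h3]
    simp only [h5, h6] at h4
    simp at h4

theorem one_specM {RT : List (ℕ × ℕ × ℕ)} (hR : RT.all (wit [] 23) = true) (hM : RT.all mvb = true) {g m : ℕ}
    (hg : ok g = true) (h : one [] RT g m = true) : OreM (el g) := by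
  simp only [one, Bool.and_eq_true] at h
  obtain ⟨⟨⟨h1, -⟩, h3⟩, h4⟩ := h
  have h5 := Nat.eq_of_beq_eq_true h4
  have h3' : m % 32 < RT.length := Nat.blt_eq.mp h3
  rw [List.getD_eq_getElem _ _ h3'] at h5
  have h6 := List.all_eq_true.1 hR _ (List.getElem_mem h3')
  have h6' := List.all_eq_true.1 hM _ (List.getElem_mem h3')
  have hP := wit_specM h6 h6'
  have hr := (wit_spec (n := 23) (by norm_num) (by decide) h6).1
  refine OreM.of_conj (x := el (m / 32)) ?_
  have h7 := congrArg el h5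
  rw [el_pcomp h1 hg, el_pcomp hr h1] at h7
  rw [h7, mul_inv_cancel_right]
  exact hP

/-- **cosets** -/
theorem cosetM {RT : List (ℕ × ℕ × ℕ)} {HT : List (List (List ℕ))} {c : ℕ}
    (h : chkC [] 23 c RT HT = true) (hM : RT.all mvb = true) (g : M24)
    (hg : ∀ j ∈ [23, 0, 1, 2], g • pt j = pt (papp c j)) : OreM g := by
  simp only [chkC, Bool.and_eq_true] at h
  obtain ⟨⟨hc, hR⟩, hU⟩ := h
  have hk : ∀ j ∈ [23, 0, 1, 2], ((el c)⁻¹ * g) • pt j = pt j := by
    intro j hj
    have hj24 : ∀ j ∈ [23, 0, 1, 2], j < 24 := by decide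
    rw [mul_smul, inv_smul_eq_iff, hg j hj, el_smul_pt hc, idx_pt (hj24 j hj)]
  obtain ⟨u, hu, v, hv, w, hw, huo, hvo, hwo, he⟩ := factor _ hk
  obtain ⟨m, hm⟩ := chkU_spec hU u hu v hv w hw
  have h1 := one_specM hR hM (ok_pcomp (ok_pcomp (ok_pcomp hc huo) hvo) hwo) hm
  rw [el_pcomp (ok_pcomp (ok_pcomp hc huo) hvo) hwo, el_pcomp (ok_pcomp hc huo) hvo,
    el_pcomp hc huo] at h1
  have h2 : g = el c * el u * el v * el w := by
    have : g = el c * ((el c)⁻¹ * g) := by group
    rw [this, he]; group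
  rw [h2]
  exact h1

theorem useM {RT : List (ℕ × ℕ × ℕ)} {HT : List (List (List ℕ))} {c : ℕ}
    (h : chkC [] 23 c RT HT = true) (hM : RT.all mvb = true) {l x : M24} {p0 p1 p2 p3 : GolayPt} (h0 : x • p0 = pt 23)
    (h1 : x • p1 = pt 0) (h2 : x • p2 = pt 1) (h3 : x • p3 = pt 2) {i0 i1 i2 i3 : ℕ}
    (hi : papp c 23 = i0 ∧ papp c 0 = i1 ∧ papp c 1 = i2 ∧ papp c 2 = i3)
    (q0 : x • l • p0 = pt i0) (q1 : x • l • p1 = pt i1) (q2 : x • l • p2 = pt i2)
    (q3 : x • l • p3 = pt i3) : OreM l := by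
  refine OreM.of_conj (x := x) (cosetM h hM _ ?_)
  obtain ⟨e0, e1, e2, e3⟩ := hi
  intro j hj
  simp only [List.mem_cons, List.not_mem_nil, or_false] at hj
  rcases hj with rfl | rfl | rfl | rfl
  · rw [e0, ← h0, mul_smul, mul_smul, inv_smul_smul, q0]
  · rw [e1, ← h1, mul_smul, mul_smul, inv_smul_smul, q1]
  · rw [e2, ← h2, mul_smul, mul_smul, inv_smul_smul, q2]
  · rw [e3, ← h3, mul_smul, mul_smul, inv_smul_smul, q3]

theorem mA : H517.Ore.M24a.RT.all mvb = true := by decide +kernel
theorem mB : H517.Ore.M24b.RT.all mvb = true := by decide +kernel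
theorem mC : H517.Ore.M24c.RT.all mvb = true := by decide +kernel
theorem mD : H517.Ore.M24d.RT.all mvb = true := by decide +kernel

/-- **pairs of `M24`** -/
theorem oreM (l : M24) (hl : l ≠ 1) : OreM l := by
  have inj : ∀ {a b : GolayPt}, l • a = l • b → a = b := fun h => smul_left_cancel l h
  by_cases hA : ∃ p : GolayPt, l • l • p ≠ p ∧ l • l • l • p ≠ p
  · obtain ⟨p, h2, h3⟩ := hA
    have n1 : l • p ≠ p := fun e => h2 (by rw [e, e])
    by_cases h4 : l • l • l • l • p = p
    · obtain ⟨e, he⟩ := exists_new [p, l • p, l • l • p, l • l • l • p] (by norm_num)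
      have hn : [p, l • p, l • l • p, l • l • l • p, e].Nodup := by
        simp only [List.nodup_cons, List.mem_cons, List.not_mem_nil, or_false, not_or,
          not_false_eq_true, List.nodup_nil, and_true] at he ⊢
        exact ⟨⟨n1.symm, h2.symm, h3.symm, fun x => he.1 x.symm⟩,
          ⟨fun x => n1.symm (inj x), fun x => h2.symm (inj x), fun x => he.2.1 x.symm⟩,
          ⟨fun x => n1.symm (inj (inj x)), fun x => he.2.2.1 x.symm⟩, fun x => he.2.2.2 x.symm⟩
      obtain ⟨x, x0, x1, x2, x3, x4⟩ := toBase hn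
      exact useM H517.Ore.M24b.chk mB x0 x1 x2 x3 (i0 := 0) (i1 := 1) (i2 := 2) (i3 := 23)
        (by decide +kernel) x1 x2 x3 (by rw [h4, x0])
    · have hn : [p, l • p, l • l • p, l • l • l • p, l • l • l • l • p].Nodup := by
        simp only [List.nodup_cons, List.mem_cons, List.not_mem_nil, or_false, not_or,
          not_false_eq_true, List.nodup_nil, and_true]
        exact ⟨⟨n1.symm, h2.symm, h3.symm, fun x => h4 x.symm⟩,
          ⟨fun x => n1.symm (inj x), fun x => h2.symm (inj x), fun x => h3.symm (inj x)⟩,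
          ⟨fun x => n1.symm (inj (inj x)), fun x => h2.symm (inj (inj x))⟩,
          fun x => n1.symm (inj (inj (inj x)))⟩
      obtain ⟨x, x0, x1, x2, x3, x4⟩ := toBase hn
      exact useM H517.Ore.M24a.chk mA x0 x1 x2 x3 (i0 := 0) (i1 := 1) (i2 := 2) (i3 := 3)
        (by decide +kernel) x1 x2 x3 x4
  · push Not at hA
    by_cases hC : ∃ p : GolayPt, l • l • p ≠ p
    · obtain ⟨p, h2⟩ := hC
      have h3 := hA p h2
      have n1 : l • p ≠ p := fun e => h2 (by rw [e, e])
      by_cases hq : ∃ q, q ≠ p ∧ q ≠ l • p ∧ q ≠ l • l • p ∧ l • q ≠ q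
      · obtain ⟨q, q1, q2, q3, q4⟩ := hq
        have hn : [p, l • p, l • l • p, q, l • q].Nodup := by
          simp only [List.nodup_cons, List.mem_cons, List.not_mem_nil, or_false, not_or,
            not_false_eq_true, List.nodup_nil, and_true]
          refine ⟨⟨n1.symm, h2.symm, q1.symm, fun x => ?_⟩,
            ⟨fun x => n1.symm (inj x), q2.symm, fun x => q1 (inj x).symm⟩,
            ⟨q3.symm, fun x => q2 (inj x).symm⟩, q4.symm⟩
          rw [← h3] at x
          exact q3 (inj x).symm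
        obtain ⟨x, x0, x1, x2, x3, x4⟩ := toBase hn
        exact useM H517.Ore.M24c.chk mC x0 x1 x2 x3 (i0 := 0) (i1 := 1) (i2 := 23) (i3 := 3)
          (by decide +kernel) x1 x2 (by rw [h3, x0]) x4
      · push Not at hq
        exfalso
        refine hl (eq_one_of_three (a := p) (b := l • p) (c := l • l • p) ?_ fun q a b c => hq q a b c)
        simp only [List.nodup_cons, List.mem_cons, List.not_mem_nil, or_false, not_or,
          not_false_eq_true, List.nodup_nil, and_true]
        exact ⟨⟨n1.symm, h2.symm⟩, fun x => n1.symm (inj x)⟩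
    · push Not at hC
      obtain ⟨p, n1⟩ := exists_moved hl
      have h2 := hC p
      by_cases hq : ∃ q, q ≠ p ∧ q ≠ l • p ∧ l • q ≠ q
      · obtain ⟨q, q1, q2, q4⟩ := hq
        have h3 := hC q
        obtain ⟨e, he⟩ := exists_new [p, l • p, q, l • q] (by norm_num)
        have hn : [p, l • p, q, l • q, e].Nodup := by
          simp only [List.nodup_cons, List.mem_cons, List.not_mem_nil, or_false, not_or,
            not_false_eq_true, List.nodup_nil, and_true] at he ⊢
          refine ⟨⟨n1.symm, q1.symm, fun x => ?_, fun x => he.1 x.symm⟩,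
            ⟨q2.symm, fun x => q1 (inj x).symm, fun x => he.2.1 x.symm⟩,
            ⟨q4.symm, fun x => he.2.2.1 x.symm⟩, fun x => he.2.2.2 x.symm⟩
          rw [← h2] at x
          exact q2 (inj x).symm
        obtain ⟨x, x0, x1, x2, x3, x4⟩ := toBase hn
        exact useM H517.Ore.M24d.chk mD x0 x1 x2 x3 (i0 := 0) (i1 := 23) (i2 := 2) (i3 := 1)
          (by decide +kernel) x1 (by rw [h2, x0]) x3 (by rw [h3, x2])
      · push Not at hq
        exfalso
        obtain ⟨e, he⟩ := exists_new [p, l • p] (by norm_num)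
        refine hl (eq_one_of_three (a := p) (b := l • p) (c := e) ?_ fun q a b _ => hq q a b)
        simp only [List.nodup_cons, List.mem_cons, List.not_mem_nil, or_false, not_or,
          not_false_eq_true, List.nodup_nil, and_true] at he ⊢
        exact ⟨⟨n1.symm, fun x => he.1 x.symm⟩, fun x => he.2 x.symm⟩

/-! ### The code -/

theorem wp_add (σ : M24) (c d : golayCode) : wordPerm σ (c + d) = wordPerm σ c + wordPerm σ d := rfl

theorem add_self (c : golayCode) : c + c = 0 := signCo0_add_self c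

theorem fin_code : Finite golayCode := by
  have : Finite (GolayPt → ZMod 2) := inferInstance
  infer_instance

theorem card_pt : Nat.card GolayPt = 24 := by
  rw [Nat.card_eq_fintype_card]; decide

/-- two elements of order 23 -/
theorem exists_pow {a s : M24} (ha : orderOf a = 23) (hs : orderOf s = 23) :
    ∃ (g : M24) (k : ℕ), (g * a * g⁻¹) ^ k = s := by
  classical
  have : Fact (Nat.Prime 23) := ⟨by norm_num⟩
  have hfin : Finite M24 := inferInstance
  have hcard : Nat.card M24 = 244823040 := Cfsg.Agent.S0364.result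
  have hsyl : ∀ x : M24, orderOf x = 23 → ∃ S : Sylow 23 M24, (S : Subgroup M24) = Subgroup.zpowers x := by
    intro x hx
    have h1 : Nat.card (Subgroup.zpowers x) = 23 := by rw [Nat.card_zpowers, hx]
    have h2 : IsPGroup 23 (Subgroup.zpowers x) := IsPGroup.of_card (n := 1) (by rw [h1, pow_one])
    have h3 : ¬ 23 ∣ (Subgroup.zpowers x).index := by
      have h4 := Subgroup.card_mul_index (Subgroup.zpowers x)
      rw [h1, hcard] at h4
      have h5 : (Subgroup.zpowers x).index = 10644480 := by omega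
      rw [h5]; norm_num
    exact ⟨h2.toSylow h3, rfl⟩
  obtain ⟨S, hS⟩ := hsyl a ha
  obtain ⟨T, hT⟩ := hsyl s hs
  obtain ⟨g, hg⟩ := MulAction.exists_smul_eq M24 S T
  refine ⟨g, ?_⟩
  have h1 : s ∈ (g • S : Sylow 23 M24) := by
    rw [hg]
    show s ∈ (T : Subgroup M24)
    rw [hT]
    exact Subgroup.mem_zpowers s
  have h2 : s ∈ (MulAut.conj g) • (S : Subgroup M24) := h1
  rw [hS, Subgroup.mem_smul_pointwise_iff_exists] at h2
  obtain ⟨y, hy, e⟩ := h2
  have hy' : y ∈ Submonoid.powers a := (mem_powers_iff_mem_zpowers).2 hy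
  obtain ⟨k, rfl⟩ := hy'
  refine ⟨k, ?_⟩
  rw [← e]
  show _ = g * a ^ k * g⁻¹
  rw [conj_pow]

/-- code words fixed by an element of order 23 -/
theorem fixed_word {a : M24} (ha : orderOf a = 23) {c : golayCode} (hc : wordPerm a c = c) : c = 0 ∨ c = allOne := by
  have hs : orderOf shift = 23 := by
    have : Fact (Nat.Prime 23) := ⟨by norm_num⟩
    apply orderOf_eq_prime shift_pow_23
    intro h
    apply x23_ne_one
    show permCo0 shift = 1
    rw [h, map_one]
  obtain ⟨g, k, e⟩ := exists_pow ha hs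
  have h1 : wordPerm (g * a * g⁻¹) (wordPerm g c) = wordPerm g c := by
    rw [wordPerm_mul, wordPerm_mul, ← wordPerm_mul g⁻¹ g, inv_mul_cancel, wordPerm_one, hc]
  have h2 : ∀ n : ℕ, wordPerm ((g * a * g⁻¹) ^ n) (wordPerm g c) = wordPerm g c := by
    intro n
    induction n with
    | zero => rw [pow_zero, wordPerm_one]
    | succ n ih => rw [pow_succ, wordPerm_mul, h1, ih]
  have h3 : wordPerm shift (wordPerm g c) = wordPerm g c := by rw [← e]; exact h2 k
  have h4 : c = wordPerm g⁻¹ (wordPerm g c) := by rw [← wordPerm_mul, inv_mul_cancel, wordPerm_one]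
  rcases MonsterU.CoFrameF.eq_of_shift h3 with h | h
  · left
    rw [h4, h]; rfl
  · right
    rw [h4, h]; rfl

theorem exists_fixed {a : M24} (ha : orderOf a = 23) : ∃ p : GolayPt, a • p = p := by
  have : Fact (Nat.Prime 23) := ⟨by norm_num⟩
  have hp : IsPGroup 23 (Subgroup.zpowers a) := IsPGroup.of_card (n := 1) (by rw [Nat.card_zpowers, ha, pow_one])
  have h1 : ¬ 23 ∣ Nat.card GolayPt := by rw [card_pt]; norm_num
  obtain ⟨p, hp⟩ := hp.nonempty_fixed_point_of_prime_not_dvd_card GolayPt h1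
  exact ⟨p, hp ⟨a, Subgroup.mem_zpowers a⟩⟩

theorem one_apply (p : GolayPt) : (allOne : GolayPt → ZMod 2) p = 1 := rfl

/-- words vanishing at the letter fixed by an element of order 23 -/
theorem exists_half {a : M24} (ha : orderOf a = 23) {p : GolayPt} (hp : a • p = p) {c : golayCode}
    (hc : (c : GolayPt → ZMod 2) p = 0) : ∃ v : golayCode, c = v + wordPerm a v := by
  have hfin := fin_code
  let W := {c : golayCode // (c : GolayPt → ZMod 2) p = 0}
  have hfix : ∀ d : golayCode, (wordPerm a d : GolayPt → ZMod 2) p = (d : GolayPt → ZMod 2) p := by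
    intro d
    have e : (a : Equiv.Perm GolayPt).symm p = p := (Equiv.symm_apply_eq _).2 hp.symm
    rw [wordPerm_apply, e]
  let f : W → W := fun v => ⟨v.1 + wordPerm a v.1, by
    show (v.1 : GolayPt → ZMod 2) p + (wordPerm a v.1 : GolayPt → ZMod 2) p = 0
    rw [hfix, v.2, add_zero]⟩
  have hinj : Function.Injective f := by
    intro v w h
    have h1 : v.1 + wordPerm a v.1 = w.1 + wordPerm a w.1 := congrArg Subtype.val h
    have h2 : wordPerm a (v.1 + w.1) = v.1 + w.1 := by
      rw [wp_add]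
      calc wordPerm a v.1 + wordPerm a w.1 = (v.1 + v.1) + (wordPerm a v.1 + wordPerm a w.1) := by
            rw [add_self, zero_add]
        _ = v.1 + (v.1 + wordPerm a v.1) + wordPerm a w.1 := by abel
        _ = v.1 + (w.1 + wordPerm a w.1) + wordPerm a w.1 := by rw [h1]
        _ = v.1 + w.1 + (wordPerm a w.1 + wordPerm a w.1) := by abel
        _ = v.1 + w.1 := by rw [add_self, add_zero]
    have h3 : v.1 + w.1 = 0 := by
      rcases fixed_word ha h2 with h3 | h3
      · exact h3
      · exfalso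
        have h4 : ((v.1 + w.1 : golayCode) : GolayPt → ZMod 2) p = 1 := by rw [h3]; rfl
        have h5 : ((v.1 + w.1 : golayCode) : GolayPt → ZMod 2) p = 0 := by
          show (v.1 : GolayPt → ZMod 2) p + (w.1 : GolayPt → ZMod 2) p = 0
          rw [v.2, w.2, add_zero]
        rw [h5] at h4
        exact absurd h4 (by decide)
    apply Subtype.ext
    calc v.1 = v.1 + (w.1 + w.1) := by rw [add_self, add_zero]
      _ = (v.1 + w.1) + w.1 := by abel
      _ = w.1 := by rw [h3, zero_add]
  obtain ⟨v, hv⟩ := (Finite.surjective_of_injective hinj) ⟨c, hc⟩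
  exact ⟨v.1, (congrArg Subtype.val hv).symm⟩

/-- code words separate letters -/
theorem exists_sep {p r : GolayPt} (h : p ≠ r) : ∃ c : golayCode, (c : GolayPt → ZMod 2) p ≠ (c : GolayPt → ZMod 2) r := by
  obtain ⟨e, he⟩ := exists_new [p, r] (by norm_num)
  obtain ⟨f, hf⟩ := exists_new [p, r, e] (by norm_num)
  obtain ⟨g, hg⟩ := exists_new [p, r, e, f] (by norm_num)
  have hn : [p, r, e, f, g].Nodup := by
    simp only [List.nodup_cons, List.mem_cons, List.not_mem_nil, or_false, not_or,
      not_false_eq_true, List.nodup_nil, and_true] at he hf hg ⊢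
    exact ⟨⟨h, fun x => he.1 x.symm, fun x => hf.1 x.symm, fun x => hg.1 x.symm⟩,
      ⟨fun x => he.2 x.symm, fun x => hf.2.1 x.symm, fun x => hg.2.1 x.symm⟩,
      ⟨fun x => hf.2.2 x.symm, fun x => hg.2.2.1 x.symm⟩, fun x => hg.2.2.2 x.symm⟩
  obtain ⟨x, x0, x1, -, -, -⟩ := toBase hn
  refine ⟨wordPerm x⁻¹ (q 0), ?_⟩
  have hx : ∀ s : GolayPt, (wordPerm x⁻¹ (q 0) : GolayPt → ZMod 2) s = qrWord 0 (x • s) := fun s => rfl
  rw [hx, hx, x0, x1]
  decide +kernel

/-- **the code is `(1 + b) C + (1 + a) C`** -/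
theorem code_eq {a b : M24} (ha : orderOf a = 23) (hab : ∀ p : GolayPt, a • p = p → b • p ≠ p) (c : golayCode) :
    ∃ u v : golayCode, c = (u + wordPerm b u) + (v + wordPerm a v) := by
  obtain ⟨p, hp⟩ := exists_fixed ha
  by_cases hc : (c : GolayPt → ZMod 2) p = 0
  · obtain ⟨v, hv⟩ := exists_half ha hp hc
    refine ⟨0, v, ?_⟩
    rw [← hv]
    show c = (0 + wordPerm b 0) + c
    rw [show wordPerm b 0 = 0 from rfl, add_zero, zero_add]
  · have hc1 : (c : GolayPt → ZMod 2) p = 1 :=
      (Cfsg.Agent.SporadicStructure.LeechBase.zmod2_cases _).resolve_left hc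
    have hbp : p ≠ b⁻¹ • p := by
      intro h
      apply hab p hp
      conv_lhs => rw [h]
      rw [smul_inv_smul]
    obtain ⟨u, hu⟩ := exists_sep hbp
    have hd : ((u + wordPerm b u : golayCode) : GolayPt → ZMod 2) p = 1 := by
      show (u : GolayPt → ZMod 2) p + (u : GolayPt → ZMod 2) (b⁻¹ • p) = 1
      generalize (u : GolayPt → ZMod 2) p = s at hu ⊢
      generalize (u : GolayPt → ZMod 2) (b⁻¹ • p) = t at hu ⊢
      revert s t
      decide
    have h0 : ((c + (u + wordPerm b u) : golayCode) : GolayPt → ZMod 2) p = 0 := by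
      show (c : GolayPt → ZMod 2) p + ((u + wordPerm b u : golayCode) : GolayPt → ZMod 2) p = 0
      rw [hc1, hd]; decide
    obtain ⟨v, hv⟩ := exists_half ha hp h0
    refine ⟨u, v, ?_⟩
    rw [← hv]
    calc c = c + 0 := (add_zero c).symm
      _ = c + ((u + wordPerm b u) + (u + wordPerm b u)) := by rw [add_self]
      _ = (u + wordPerm b u) + (c + (u + wordPerm b u)) := by abel

/-! ### `Co0` -/

/-- the group of sign changes -/
def S : Subgroup Co0 where
  carrier := {x | ∃ c, x = signCo0 c}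
  one_mem' := ⟨0, signCo0_zero.symm⟩
  mul_mem' := by
    rintro _ _ ⟨c, rfl⟩ ⟨d, rfl⟩
    exact ⟨c + d, (signCo0_add c d).symm⟩
  inv_mem' := by
    rintro _ ⟨c, rfl⟩
    exact ⟨c, signCo0_inv c⟩

theorem comm_sign (σ : M24) (c : golayCode) :
    signCo0 c * permCo0 σ * (signCo0 c)⁻¹ * (permCo0 σ)⁻¹ = signCo0 (c + wordPerm σ c) := by
  rw [signCo0_inv, mul_assoc (signCo0 c), mul_assoc, perm_mul_sign_mul_inv, ← signCo0_add]

/-- the involution `x ↦ -1/x` -/
noncomputable def J : M24 := ⟨projInv, Cfsg.Agent.S0372.result⟩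

theorem q0_J : q 0 + wordPerm J (q 0) = allOne := by
  apply Subtype.ext
  funext p
  show qrWord 0 p + qrWord 0 ((projInv).symm p) = 1
  revert p
  decide +kernel

/-- **every sign change is a commutator** -/
theorem isC_sign (c : golayCode) : IsC (signCo0 c) := by
  by_cases h : c = allOne
  · refine ⟨signCo0 (q 0), permCo0 J, ?_⟩
    rw [comm_sign, q0_J, h]
  · obtain ⟨p, hp⟩ : ∃ p, (c : GolayPt → ZMod 2) p = 0 := by
      by_contra hno
      push Not at hno
      apply h
      apply Subtype.ext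
      funext p
      exact (Cfsg.Agent.SporadicStructure.LeechBase.zmod2_cases _).resolve_left (hno p)
    -- an element of order 23 fixing `p`
    obtain ⟨a, ha, hap⟩ : ∃ a : M24, orderOf a = 23 ∧ a • p = p := by
      have hs : orderOf shift = 23 := by
        have : Fact (Nat.Prime 23) := ⟨by norm_num⟩
        apply orderOf_eq_prime shift_pow_23
        intro h
        apply x23_ne_one
        show permCo0 shift = 1
        rw [h, map_one]
      obtain ⟨e1, he1⟩ := exists_new [p] (by norm_num)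
      obtain ⟨e2, he2⟩ := exists_new [p, e1] (by norm_num)
      obtain ⟨e3, he3⟩ := exists_new [p, e1, e2] (by norm_num)
      obtain ⟨e4, he4⟩ := exists_new [p, e1, e2, e3] (by norm_num)
      have hn : [p, e1, e2, e3, e4].Nodup := by
        simp only [List.nodup_cons, List.mem_cons, List.not_mem_nil, or_false, not_or,
          not_false_eq_true, List.nodup_nil, and_true] at he1 he2 he3 he4 ⊢
        exact ⟨⟨fun x => he1 x.symm, fun x => he2.1 x.symm, fun x => he3.1 x.symm, fun x => he4.1 x.symm⟩,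
          ⟨fun x => he2.2 x.symm, fun x => he3.2.1 x.symm, fun x => he4.2.1 x.symm⟩,
          ⟨fun x => he3.2.2 x.symm, fun x => he4.2.2.1 x.symm⟩, fun x => he4.2.2.2 x.symm⟩
      obtain ⟨x, x0, -, -, -, -⟩ := toBase hn
      refine ⟨x⁻¹ * shift * x, ?_, ?_⟩
      · rw [← hs]
        have h1 : x⁻¹ * shift * x = MulAut.conj x⁻¹ shift := by
          rw [MulAut.conj_apply, inv_inv]
        rw [h1]
        exact MulEquiv.orderOf_eq (MulAut.conj x⁻¹) shift
      · rw [mul_smul, mul_smul, x0, pt23]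
        have h1 : shift • (none : GolayPt) = none := rfl
        rw [h1, ← pt23, ← x0, inv_smul_smul]
    obtain ⟨v, hv⟩ := exists_half ha hap hp
    refine ⟨signCo0 v, permCo0 a, ?_⟩
    rw [comm_sign, ← hv]

open MonsterU.CoFrameF (sp_mul) in
/-- **every element of `2^12:M24` is a commutator** -/
theorem isC_sp (c : golayCode) (l : M24) : IsC (signCo0 c * permCo0 l) := by
  by_cases hl : l = 1
  · rw [hl, map_one, mul_one]
    exact isC_sign c
  obtain ⟨a, b, hab, ha, hf⟩ := oreM l hl
  have ha' : orderOf a⁻¹ = 23 := by rw [orderOf_inv, ha]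
  have hf' : ∀ p : GolayPt, a⁻¹ • p = p → b • p ≠ p := by
    intro p hp
    apply hf
    rw [inv_smul_eq_iff] at hp
    exact hp.symm
  obtain ⟨U, V, hUV⟩ := code_eq ha' hf' (wordPerm a⁻¹ c)
  have hinv : ∀ (x : M24) (d : golayCode), wordPerm x (wordPerm x⁻¹ d) = d := fun x d => by
    rw [← wordPerm_mul, mul_inv_cancel, wordPerm_one]
  -- the pair
  set u : golayCode := wordPerm a (U + (V + wordPerm a⁻¹ V)) with hu
  set v : golayCode := wordPerm b V with hv
  refine ⟨signCo0 u * permCo0 a, signCo0 v * permCo0 b, ?_⟩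
  have h1 : (signCo0 c * permCo0 l) * ((signCo0 v * permCo0 b) * (signCo0 u * permCo0 a)) =
      (signCo0 u * permCo0 a) * (signCo0 v * permCo0 b) := by
    rw [sp_mul, sp_mul, sp_mul]
    have e1 : l * (b * a) = a * b := by rw [hab]; group
    rw [e1]
    congr 2
    -- the equation in the code
    have h2 : c = wordPerm a (U + wordPerm b U + (V + wordPerm a⁻¹ V)) := by rw [← hUV, hinv]
    have h3 : wordPerm l (v + wordPerm b u) = wordPerm (a * b * a⁻¹) V + wordPerm (a * b) (U + (V + wordPerm a⁻¹ V)) := by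
      rw [wp_add, hv, hu, ← wordPerm_mul, ← wordPerm_mul, ← wordPerm_mul]
      have e2 : l * b = a * b * a⁻¹ := by rw [hab]; group
      have e3 : l * b * a = a * b := by rw [e2]; group
      rw [e3, e2]
    have h4 : wordPerm (a * b * a⁻¹) V = wordPerm (a * b) (wordPerm a⁻¹ V) := wordPerm_mul _ _ _
    rw [h3, h4, h2, ← wp_add]
    have h5 : wordPerm a⁻¹ V + (U + (V + wordPerm a⁻¹ V)) = U + V := by
      calc wordPerm a⁻¹ V + (U + (V + wordPerm a⁻¹ V)) = U + V + (wordPerm a⁻¹ V + wordPerm a⁻¹ V) := by abel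
        _ = U + V := by rw [add_self, add_zero]
    rw [h5, hu, hv, wordPerm_mul, ← wp_add, ← wp_add]
    congr 1
    rw [wp_add b]
    calc U + wordPerm b U + (V + wordPerm a⁻¹ V) + (wordPerm b U + wordPerm b V)
        = U + (V + wordPerm a⁻¹ V) + wordPerm b V + (wordPerm b U + wordPerm b U) := by abel
      _ = U + (V + wordPerm a⁻¹ V) + wordPerm b V := by rw [add_self, add_zero]
  calc signCo0 c * permCo0 l = (signCo0 c * permCo0 l) * ((signCo0 v * permCo0 b) * (signCo0 u * permCo0 a)) *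
        (signCo0 u * permCo0 a)⁻¹ * (signCo0 v * permCo0 b)⁻¹ := by group
    _ = _ := by rw [h1]

theorem isC_N {y : Co0} (hy : y ∈ N) : IsC y := by
  obtain ⟨c, σ, h⟩ := exists_sign_perm hy
  rw [h]
  exact isC_sp c σ

/-- the centre -/
theorem isC_neg : IsC (signCo0 allOne) := isC_sign allOne

open MonsterU.CoFrameF (F pr_mem_F) in
open Cfsg.Agent.CoOneType.CoOneE (pr) in
theorem isC_of_F {x h : Co0} (hx : pr h * pr x * (pr h)⁻¹ ∈ F) : IsC x := by
  rw [← map_inv, ← map_mul, ← map_mul, pr_mem_F] at hx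
  exact (isC_N hx).of_conj h

open Cfsg.Agent.CoOneType.CoOneE (pr pr_surjective) in
/-- **the lifts of 2-elements** -/
theorem isC_two (g : Spor.Co1) (hg : ∃ i : ℕ, g ^ 2 ^ i = 1) (x : Co0) (hx : pr x = g) : IsC x := by
  obtain ⟨c, hc⟩ := H518.Ore.CoOneN.exists_conj_F hg
  obtain ⟨t, rfl⟩ := pr_surjective c
  refine isC_of_F (h := t⁻¹) ?_
  rw [map_inv, inv_inv, hx]
  exact hc

open Cfsg.Agent.CoOneType.CoOneE (pr pr_surjective centralizer_dodecad_le) in
/-- **the lifts of the elements commuting with a dodecad involution** -/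
theorem isC_isD (g u : Spor.Co1) (hu : ∃ d : golayCode, CoOneType.SignFacts.wt d = 12 ∧ IsConj (pr (signCo0 d)) u)
    (hg : g * u = u * g) (x : Co0) (hx : pr x = g) : IsC x := by
  obtain ⟨d, hd, hdu⟩ := hu
  obtain ⟨h, hh⟩ := isConj_iff.1 hdu.symm
  obtain ⟨t, rfl⟩ := pr_surjective h
  refine isC_of_F (h := t) (centralizer_dodecad_le d hd ?_)
  rw [Subgroup.mem_centralizer_singleton_iff, hx, ← hh]
  calc pr t * g * (pr t)⁻¹ * (pr t * u * (pr t)⁻¹) = pr t * (g * u) * (pr t)⁻¹ := by group
    _ = pr t * u * (pr t)⁻¹ * (pr t * g * (pr t)⁻¹) := by rw [hg]; group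

end Cfsg.Agent.H11.QO.Monom
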